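import Cfsg.Agent.H425.EPO.Q2PSUCore
import Cfsg.Agent.H737.EPO.Q2Of

/-!
# S5745, socles over the field with two elements: `PSU_{2m}(2)` is dead (helper425)
-/

set_option autoImplicit false
set_option linter.unusedSectionVars false

namespace Cfsg.Agent.H425.EPO

open Cfsg Cfsg.Agent.H284 Cfsg.Agent.H209.EPX Cfsg.Agent.H737.EPO Cfsg.Agent.KFacts.RgdFilt
  Cfsg.Agent.H742.EX.Q2

/-- **The row `PSU_{2m}(2)`, `m ≥ 2`, of `OwnQ2`.** -/
theorem dead_psu {G : Type} [Group G] [Finite G] [IsSimpleGroup G] (hGF : HasFilt 2 G) {F : Fam} {f : ℕ}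
    (hok : okF F f = true) (hord : IsOrd F f G) {H N : Subgroup G} {T : Type} [Group T] {k : ℕ}
    {e : N ≃* (Fin k → T)} (h : EPS H N e) {K : Type} [Field K] [Fintype K] (hK : Fintype.card K = 4) {m : ℕ}
    (hm : 2 ≤ m) (g : T ≃* PSU (2 * m) K 2) : False := by
  classical
  have : Fact (Nat.Prime 2) := ⟨Nat.prime_two⟩
  have hK2 : Fintype.card K = 2 ^ 2 := by rw [hK]; norm_num
  have : CharP K 2 := by
    obtain ⟨p, hp⟩ := CharP.exists K
    obtain ⟨⟨n, hn⟩, hpp, hc⟩ := FiniteField.card K p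
    rw [hK2, PNat.mk_coe] at hc
    have h1 : p ∣ 2 ^ 2 := hc ▸ dvd_pow_self p hn.ne'
    have h2 : p = 2 := (Nat.prime_dvd_prime_iff_eq hpp Nat.prime_two).1 (hpp.dvd_of_dvd_pow h1)
    rw [← h2]
    exact hp
  have hfin : Finite T := by
    have : Nonempty (Fin k) := ⟨⟨0, h.pos⟩⟩
    have h1 : Finite (Fin k → T) := Finite.of_equiv N e.toEquiv
    exact Finite.of_surjective (fun f : Fin k → T => f ⟨0, h.pos⟩) fun t => ⟨fun _ => t, rfl⟩
  have hfinU : Finite (PSU (2 * m) K 2) := Finite.of_equiv T g.toEquiv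
  have := h.simple
  have hP := (Cfsg.Agent.H742.pan_psu_even hK2 hm (p := 2)).of_equiv g.symm
  have hF : HasFilt 2 T := (Cfsg.Agent.KFacts.RgdFiltClass.hasFilt_PSU hK2 (N := 2 * m) (by omega)).of_equiv g.symm
  obtain ⟨rfl, A, hC, Tt, n, X, hW, h2, R, hBT, hG, hX, hconn, e', R₀, i, t, q, hq, hi, hres⟩ :=
    q2_pan hm h hGF hP hF (Or.inr ⟨⟨0, by omega⟩, ⟨m - 1, by omega⟩, by
      rw [if_pos (show 0 + 1 < m by omega), if_neg (show ¬ m - 1 + 1 < m by omega)]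
      norm_num⟩)
  obtain ⟨hm2, hidx⟩ := core hm R hBT hG hX hconn h.nab (fun j => by
    rw [hq]
    norm_num) q hres
  subst hm2
  exact dead_psu4 hok hord h hK g le_rfl hidx

end Cfsg.Agent.H425.EPO
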