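import Cfsg.Agent.H869.EPO.GeoRGD
import Cfsg.Agent.H284.EPO.W3
import Cfsg.Agent.H742.EX.Q2Grp
import Cfsg.Agent.H742.PanU

/-!
# S5745, socles over the field with two elements: `PSU_{2m}(2)` (helper425)

`core` : in the state `Q2` of helper737 for a root group datum of type `B_m` with the orders `(4, …, 4, 2)`:
`m = 2` and `|G : H| ≤ 27 · 28`.
-/

set_option autoImplicit false
set_option linter.unusedSectionVars false

namespace Cfsg.Agent.H425.EPO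

open Cfsg.Agent.H284 Cfsg.Agent.H209.EPX Cfsg.Agent.H737.EPO
open CoxeterSystem Cfsg.Agent.ChevalleyStructure.CoxeterGeom Cfsg.Agent.Tits.Roots Cfsg.Agent.Tits.Core
  Cfsg.Agent.Tits.RootComb Cfsg.Agent.Tits.Exchange Cfsg.Agent.Nodes.Reps Cfsg.Agent.Nodes.BNOf
  Cfsg.Agent.Nodes.StabComb Cfsg.Agent.Nodes.Bruhat Cfsg.Agent.Nodes.OppDec Cfsg.Agent.Nodes.LeviDec
  Cfsg.Agent.Nodes.Coroot Cfsg.Agent.KFacts.RgdPar Cfsg.Agent.KFacts.RgdSL Cfsg.Agent.KFacts.RgdVJ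
  Cfsg.Agent.KFacts.RgdCharP

variable {m : ℕ} {W G Y : Type*} [Group W] [Finite W] [Group G] [Finite G] [Group Y] [Finite Y]
  {cs : CoxeterSystem (CoxeterMatrix.B m) W} {A : Fin m → Fin m → ℤ} {h : IsCartan (CoxeterMatrix.B m) A}
  {T : Subgroup Y} {n : Fin m → Y} {X : (Fin m → ℤ) → Subgroup Y}

/-- the number of points of `U_4(2)` -/
theorem index_27 {p : ℕ} (hm2 : m = 2) (R : RGD cs h p T n X) (hG : GG cs h T X = ⊤)
    (hq : ∀ j, Nat.card (X (sr j)) = if (j : ℕ) + 1 < m then 4 else 2) {i : Fin m} (hi : (i : ℕ) = 1) :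
    (PJ cs h T X {i}ᶜ).index = 27 := by
  have h1 := Cfsg.Agent.H965.XZ.index_B R hG (y := 4) (z := 2) (fun j hj => by rw [hq, if_pos hj])
    (fun j hj => by rw [hq, if_neg (by omega)]) (a := 2) (by norm_num) (by omega)
  have h2 : ({j | (j : ℕ) + 1 ≠ 2} : Set (Fin m)) = {i}ᶜ := by
    ext j
    rw [Set.mem_ofPred_eq, Set.mem_compl_singleton_iff, Ne, Ne, Fin.ext_iff, hi]
    omega
  rw [h2] at h1
  subst hm2
  have h3 : (∏ i ∈ Finset.range 2, Cfsg.Agent.H965.XZ.gs 4 (i + 1) : ℕ) = 5 := by decide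
  have h4 : (∏ i ∈ Finset.range 2, Cfsg.Agent.H965.XZ.gs 4 (2 - 2 + i + 1) * (1 + 4 ^ (2 - 2 + i) * 2) : ℕ) = 135 := by
    decide
  rw [h3, h4] at h1
  omega

/-- **`PSU_{2m}(2)`** in the state `Q2` -/
theorem core [IsSimpleGroup Y] (hm : 2 ≤ m) (R : RGD cs h 2 T n X) (hBT : BT cs h 2 T X) (hG : GG cs h T X = ⊤)
    (hX : RGD.Sup X {x | IsRoot cs h x} = ⊤) (hconn : Conn (CoxeterMatrix.B m)) (hY : ∃ a b : Y, a * b ≠ b * a)
    (hq : ∀ j, Nat.card (X (sr j)) = if (j : ℕ) + 1 < m then 4 else 2) {H N R' : Subgroup G}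
    {e : N ≃* (Fin 1 → Y)} {i : Fin m} {t : G} [Fact (Nat.Prime 2)]
    (q : Q2 H R' e (ofRGD R hBT hG hX hconn) i t) (hres : TThree.Res cs h T X i) :
    m = 2 ∧ H.index ≤ 27 * (27 + 1) := by
  have hi2 : Nat.card (X (sr i)) = 2 := by
    rw [← relIndex_ofRGD R hBT hG hX hconn i]
    exact q.idx
  obtain ⟨hm2, hi⟩ := TThree.surv_U R hm hq hi2 hres
  refine ⟨hm2, ?_⟩
  have hne : ({i} : Set (Fin m)) ≠ Set.univ := by
    intro h1
    have h2 : (⟨0, by omega⟩ : Fin m) ∈ ({i} : Set (Fin m)) := by rw [h1]; trivial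
    rw [Set.mem_singleton_iff, Fin.ext_iff, hi] at h2
    exact absurd h2 (by norm_num)
  have hW : TThree.W3 cs i := by
    subst hm2
    exact TThree.w3_B2 h i
  have h3 := Cfsg.Agent.H869.EPO.index_le_of R hBT hG hX hconn hY q hne hW
  rwa [index_27 hm2 R hG hq hi] at h3

end Cfsg.Agent.H425.EPO
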